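import Mathlib
import Cfsg.Agent.Lib.Helper83.SnB.Q8MDefs

/-!
S2986, [Q8-M] sub-package [M-XB] (helper45): the facts on an exceptional block.
-/

set_option autoImplicit false

namespace Cfsg.Agent.Lib.Helper45.SnB

open Cfsg Cfsg.Agent.Lib.Helper41.SnB Cfsg.Agent.Lib.Helper34.SnB Cfsg.Agent.Lib.Helper83.SnB

universe u

variable {G : Type u} [Group G]

/-- membership in `V = Ω₁(Z(O_p(G)))` -/
theorem xb_mem_Vb {p : ℕ} {x : G} (hx : x ∈ pCore p G)
    (hc : ∀ c ∈ pCore p G, c * x = x * c) (hp : x ^ p = 1) : x ∈ Vb p G :=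
  Subgroup.subset_closure
    ⟨Subgroup.mem_inf.mpr ⟨hx, Subgroup.mem_centralizer_iff.mpr hc⟩, hp⟩

/-- the elements of a subgroup of order `3` -/
theorem xb_card_three [Finite G] (Z : Subgroup G) (h : Nat.card ↥Z = 3) {ζ : G} (hζ : ζ ∈ Z)
    (hζ1 : ζ ≠ 1) : ∀ y ∈ Z, y = 1 ∨ y = ζ ∨ y = ζ⁻¹ := by
  classical
  intro y hy
  have hord : orderOf ζ = 3 := by
    have h1 : orderOf ζ ∣ 3 := by
      have h2 := orderOf_dvd_natCard (⟨ζ, hζ⟩ : ↥Z)
      rwa [Subgroup.orderOf_mk, h] at h2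
    rcases (Nat.dvd_prime Nat.prime_three).mp h1 with h2 | h2
    · exact absurd (orderOf_eq_one_iff.mp h2) hζ1
    · exact h2
  have hzp : Subgroup.zpowers ζ = Z := by
    apply Subgroup.eq_of_le_of_card_ge (Subgroup.zpowers_le.mpr hζ)
    rw [Nat.card_zpowers, hord, h]
  have hy' : y ∈ Subgroup.zpowers ζ := by rw [hzp]; exact hy
  rw [mem_zpowers_iff_mem_range_orderOf, hord] at hy'
  obtain ⟨k, hk, rfl⟩ := Finset.mem_image.mp hy'
  have hk3 : k < 3 := Finset.mem_range.mp hk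
  have h3 : ζ ^ 3 = 1 := by rw [← hord]; exact pow_orderOf_eq_one ζ
  interval_cases k
  · left; simp
  · right; left; simp
  · right; right
    apply eq_inv_of_mul_eq_one_left
    show ζ ^ 2 * ζ = 1
    rw [← pow_succ]; exact h3

/-- an element inverted by `c`, with `c` of odd order, of order dividing `3`, is trivial -/
theorem xb_inv_odd {c ζ : G} (h : c * ζ * c⁻¹ = ζ⁻¹) {n : ℕ} (hn : Odd n) (hc : c ^ n = 1)
    (h3 : ζ ^ 3 = 1) : ζ = 1 := by
  have key : ∀ j : ℕ, c ^ (2 * j + 1) * ζ * (c ^ (2 * j + 1))⁻¹ = ζ⁻¹ := by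
    intro j
    induction j with
    | zero => simpa using h
    | succ j ih =>
      have e : c ^ (2 * (j + 1) + 1) * ζ * (c ^ (2 * (j + 1) + 1))⁻¹
          = c * (c * (c ^ (2 * j + 1) * ζ * (c ^ (2 * j + 1))⁻¹) * c⁻¹) * c⁻¹ := by
        have e2 : 2 * (j + 1) + 1 = (2 * j + 1) + 1 + 1 := by ring
        rw [e2, pow_succ', pow_succ']; group
      rw [e, ih]
      have e3 : c * ζ⁻¹ * c⁻¹ = (c * ζ * c⁻¹)⁻¹ := by group
      rw [e3, h, inv_inv, h]
  obtain ⟨j, rfl⟩ := hn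
  have h1 := key j
  rw [hc, one_mul, inv_one, mul_one] at h1
  have h2 : ζ * ζ = 1 := by
    nth_rewrite 1 [h1]; exact inv_mul_cancel ζ
  calc ζ = ζ ^ 3 * (ζ * ζ)⁻¹ := by group
    _ = 1 := by rw [h3, h2]; simp

theorem pkgXB : PkgXB.{u} := by
  intro G _ _ p _ S₀ X K z gf sb bf q8 b1 exc nq
  have p3 : p = 3 := gf.p3
  have hZW : Zb p X ≤ Wb p X := inf_le_left
  have hZQ : Zb p X ≤ Qb p X := hZW.trans bf.WQ
  have hZP : Zb p X ≤ pCore p G := hZQ.trans sb.QP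
  have hzX : z ∈ X := q8.KX q8.zK
  -- elements of Z commute with P
  have hZc : ∀ ζ ∈ Zb p X, ∀ c ∈ pCore p G, c * ζ = ζ * c := by
    intro ζ hζ c hc
    by_cases hζ1 : ζ = 1
    · rw [hζ1]; simp
    have hconj : c * ζ * c⁻¹ ∈ Zb p X := bf.nZ c (sb.PN hc) ζ hζ
    have h3 : ζ ^ 3 = 1 := b1.W3 ζ (hZW hζ)
    rcases xb_card_three (Zb p X) exc.cardZ hζ hζ1 _ hconj with h | h | h
    · exfalso; apply hζ1
      have e : ζ = c⁻¹ * (c * ζ * c⁻¹) * c := by group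
      rw [e, h]; group
    · calc c * ζ = (c * ζ * c⁻¹) * c := by group
        _ = ζ * c := by rw [h]
    · exfalso; apply hζ1
      obtain ⟨n, hn⟩ := gf.Pp c hc
      exact xb_inv_odd h (Odd.pow (by decide : Odd 3)) hn h3
  have hZV : Zb p X ≤ Vb p G := by
    intro ζ hζ
    refine xb_mem_Vb (hZP hζ) (hZc ζ hζ) ?_
    rw [p3]; exact b1.W3 ζ (hZW hζ)
  have hWV : Wb p X ≤ Vb p G := by
    intro w hw
    obtain ⟨a, ha, ζ, hζ, rfl⟩ := exc.WAZ w hw
    exact (Vb p G).mul_mem (sb.AV ha) (hZV hζ)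
  -- |W| = 27
  have hcardW : Nat.card ↥(Wb p X) = 27 := by
    have hbij : Function.Bijective (fun x : ↥(Ab p X) × ↥(Zb p X) =>
        (⟨(x.1 : G) * (x.2 : G), (Wb p X).mul_mem (bf.AW x.1.2) (hZW x.2.2)⟩ : ↥(Wb p X))) := by
      constructor
      · rintro ⟨⟨a, ha⟩, ⟨ζ, hζ⟩⟩ ⟨⟨a', ha'⟩, ⟨ζ', hζ'⟩⟩ h
        have h1 : a * ζ = a' * ζ' := congrArg Subtype.val h
        have h2 : a'⁻¹ * a = ζ' * ζ⁻¹ := by
          calc a'⁻¹ * a = a'⁻¹ * (a * ζ) * ζ⁻¹ := by group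
            _ = ζ' * ζ⁻¹ := by rw [h1]; group
        have h3 : a'⁻¹ * a = 1 :=
          b1.AZ0 _ ((Ab p X).mul_mem ((Ab p X).inv_mem ha') ha)
            (by rw [h2]; exact (Zb p X).mul_mem hζ' ((Zb p X).inv_mem hζ))
        have h4 : a = a' := by
          calc a = a' * (a'⁻¹ * a) := by group
            _ = a' := by rw [h3, mul_one]
        have h5 : ζ = ζ' := by
          rw [h4] at h1
          exact mul_left_cancel h1
        subst h4; subst h5; rfl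
      · rintro ⟨w, hw⟩
        obtain ⟨a, ha, ζ, hζ, rfl⟩ := exc.WAZ w hw
        exact ⟨⟨⟨a, ha⟩, ⟨ζ, hζ⟩⟩, rfl⟩
    rw [← Nat.card_congr (Equiv.ofBijective _ hbij), Nat.card_prod, q8.cardA, exc.cardZ]
  -- u^9 ∈ W
  have hu9 : ∀ u ∈ Qb p X, u ^ 9 ∈ Wb p X := by
    intro u hu
    have hnorm : ((Wb p X).subgroupOf (Qb p X)).Normal := by
      constructor
      intro w hw q
      have hw' : (w : G) ∈ Wb p X := Subgroup.mem_subgroupOf.mp hw
      apply Subgroup.mem_subgroupOf.mpr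
      have e : ((q * w * q⁻¹ : ↥(Qb p X)) : G) = (w : G) := by
        have h1 := bf.WcQ (w : G) hw' (q : G) q.2
        show (q : G) * (w : G) * (q : G)⁻¹ = (w : G)
        rw [← h1]; group
      rw [e]; exact hw'
    have hidx : ((Wb p X).subgroupOf (Qb p X)).index = 9 := by
      have h1 := Subgroup.card_mul_index ((Wb p X).subgroupOf (Qb p X))
      rw [Nat.card_congr (Subgroup.subgroupOfEquivOfLe bf.WQ).toEquiv, hcardW, exc.cardQ] at h1
      omega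
    have h2 := Subgroup.pow_index_mem ((Wb p X).subgroupOf (Qb p X)) (⟨u, hu⟩ : ↥(Qb p X))
    rw [hidx] at h2
    exact Subgroup.mem_subgroupOf.mp h2
  have hsqW : ∀ u ∈ Qb p X, u * u ∈ Wb p X → u ∈ Wb p X := by
    intro u hu huu
    have e1 : (u * u) ^ 4 = u ^ 8 := by rw [← pow_two, ← pow_mul]
    have e : u = u ^ 9 * ((u * u) ^ 4)⁻¹ := by
      rw [e1, show (9 : ℕ) = 8 + 1 from rfl, pow_succ', mul_inv_cancel_right]
    rw [e]
    exact (Wb p X).mul_mem (hu9 u hu) ((Wb p X).inv_mem ((Wb p X).pow_mem huu 4))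
  have hQneW : ¬ Qb p X ≤ Wb p X := by
    intro hle
    have h1 := Subgroup.card_le_of_le hle
    rw [exc.cardQ, hcardW] at h1
    omega
  refine ⟨exc, nq, hZV, hWV, hcardW, hu9, hsqW, ?_, hQneW, ?_, ?_⟩
  · -- QZ
    intro u hu u' hu'
    have h1 := Subgroup.commutator_mem_commutator hu hu'
    rw [exc.comm, commutatorElement_def] at h1
    exact h1
  · -- invW
    intro w hw hinv
    obtain ⟨a, ha, ζ, hζ, rfl⟩ := exc.WAZ w hw
    have h1 : z * a * z⁻¹ = a⁻¹ := q8.invA a ha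
    have h2 : ζ * z = z * ζ := bf.ZC ζ hζ z hzX
    have h3 : a * ζ = ζ * a := bf.WcQ a (bf.AW ha) ζ (hZQ hζ)
    have h4 : z * (a * ζ) * z⁻¹ = a⁻¹ * ζ := by
      calc z * (a * ζ) * z⁻¹ = (z * a * z⁻¹) * (z * ζ) * z⁻¹ := by group
        _ = a⁻¹ * (ζ * z) * z⁻¹ := by rw [h1, h2]
        _ = a⁻¹ * ζ := by group
    have h5 : (a * ζ)⁻¹ = a⁻¹ * ζ⁻¹ := by rw [h3]; group
    rw [h4, h5] at hinv
    have h6 : ζ = ζ⁻¹ := mul_left_cancel hinv
    have h7 : ζ * ζ = 1 := by nth_rewrite 1 [h6]; exact inv_mul_cancel ζ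
    have h8 : ζ = 1 := by
      calc ζ = ζ ^ 3 * (ζ * ζ)⁻¹ := by group
        _ = 1 := by rw [b1.W3 ζ (hZW hζ), h7]; simp
    rw [h8, mul_one]; exact ha
  · -- noInv
    intro x hx h1 h2 h3 h4
    apply hQneW
    intro u hu
    apply hsqW u hu
    have e : u * u = (x * u * x⁻¹ * u⁻¹)⁻¹ * (x * u * x⁻¹ * u) := by group
    rw [e]
    exact (Wb p X).mul_mem ((Wb p X).inv_mem (nq x hx h1 h2 h3 u hu)) (h4 u hu)

end Cfsg.Agent.Lib.Helper45.SnB
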