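import Mathlib
import Cfsg.Agent.Lib.Helper83.SnB.Q8MDefs

/-!
S2986, [Q8-M] sub-package [M-ZQ] (helper45): `Q = [O_p(G), z]`.
-/

set_option autoImplicit false

namespace Cfsg.Agent.Lib.Helper45.SnB

open Cfsg Cfsg.Agent.Lib.Helper41.SnB Cfsg.Agent.Lib.Helper34.SnB Cfsg.Agent.Lib.Helper83.SnB

universe u

variable {G : Type u} [Group G]

/-- the commutator of `d ζ` and `d' ζ'` when `ζ`, `ζ'` are central -/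
theorem zq_comm_central {d d' ζ ζ' : G} (h1 : ζ * d' = d' * ζ) (h2 : ζ * ζ' = ζ' * ζ)
    (h3 : ζ' * d = d * ζ') :
    (d * ζ) * (d' * ζ') * (d * ζ)⁻¹ * (d' * ζ')⁻¹ = d * d' * d⁻¹ * d'⁻¹ := by
  have e1 : (d * ζ) * (d' * ζ') = d * d' * ζ' * ζ := by
    calc (d * ζ) * (d' * ζ') = d * (ζ * d') * ζ' := by group
      _ = d * (d' * ζ) * ζ' := by rw [h1]
      _ = d * d' * (ζ * ζ') := by group
      _ = d * d' * (ζ' * ζ) := by rw [h2]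
      _ = d * d' * ζ' * ζ := by group
  have e2 : ζ' * d⁻¹ = d⁻¹ * ζ' := by
    calc ζ' * d⁻¹ = d⁻¹ * (d * ζ') * d⁻¹ := by group
      _ = d⁻¹ * (ζ' * d) * d⁻¹ := by rw [h3]
      _ = d⁻¹ * ζ' := by group
  calc (d * ζ) * (d' * ζ') * (d * ζ)⁻¹ * (d' * ζ')⁻¹
      = (d * d' * ζ' * ζ) * (d * ζ)⁻¹ * (d' * ζ')⁻¹ := by rw [e1]
    _ = d * d' * (ζ' * d⁻¹) * ζ'⁻¹ * d'⁻¹ := by group
    _ = d * d' * (d⁻¹ * ζ') * ζ'⁻¹ * d'⁻¹ := by rw [e2]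
    _ = d * d' * d⁻¹ * d'⁻¹ := by group

theorem pkgZQ : PkgZQ.{u} := by
  intro G _ _ p _ S₀ X K z gf sb bf q8 b1 alt
  have hzX : z ∈ X := q8.KX q8.zK
  have hZW : Zb p X ≤ Wb p X := inf_le_left
  have hZQ : Zb p X ≤ Qb p X := hZW.trans bf.WQ
  obtain ⟨R, hR⟩ : ∃ R : Subgroup G,
      R = Subgroup.closure {g : G | ∃ c ∈ pCore p G, g = z * c * z⁻¹ * c⁻¹} := ⟨_, rfl⟩
  rw [← hR]
  have hRQ : R ≤ Qb p X := by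
    rw [hR, Subgroup.closure_le]
    rintro g ⟨c, hc, rfl⟩
    exact b1.PXQ z hzX c hc
  have hgen : ∀ u ∈ Qb p X, z * u * z⁻¹ * u⁻¹ ∈ R := by
    intro u hu
    rw [hR]
    exact Subgroup.subset_closure ⟨u, sb.QP hu, rfl⟩
  have hAR : Ab p X ≤ R := by
    intro a ha
    have h1 : z * a * z⁻¹ = a⁻¹ := q8.invA a ha
    have h3 : a ^ 3 = 1 := b1.W3 a (bf.AW ha)
    have h2 : a = z * a * z⁻¹ * a⁻¹ := by
      rw [h1]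
      calc a = a ^ 3 * (a⁻¹ * a⁻¹) := by group
        _ = a⁻¹ * a⁻¹ := by rw [h3, one_mul]
    rw [h2]
    exact hgen a (bf.WQ (bf.AW ha))
  apply le_antisymm _ hRQ
  rcases alt with nb | xb
  · rw [nb.1]; exact hAR
  · -- every element of Q is d * ζ
    have hdec : ∀ u ∈ Qb p X, ∃ d ∈ R, ∃ ζ ∈ Zb p X, u = d * ζ := by
      intro u hu
      obtain ⟨a₁, ha₁, ζ₁, hζ₁, hw₁⟩ := xb.exc.WAZ _ (xb.exc.invQ u hu)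
      obtain ⟨a₉, ha₉, ζ₉, hζ₉, hw₉⟩ := xb.exc.WAZ _ (xb.u9 u hu)
      obtain ⟨d₂, hd₂⟩ : ∃ d₂, d₂ = (z * u * z⁻¹ * u⁻¹)⁻¹ * a₁ := ⟨_, rfl⟩
      have hd₂R : d₂ ∈ R := by
        rw [hd₂]; exact R.mul_mem (R.inv_mem (hgen u hu)) (hAR ha₁)
      have huu : u * u = d₂ * ζ₁ := by
        have e : u * u = (z * u * z⁻¹ * u⁻¹)⁻¹ * (z * u * z⁻¹ * u) := by group
        rw [e, hw₁, hd₂]; group
      have hc1 : Commute d₂ ζ₁ := (bf.WcQ ζ₁ (hZW hζ₁) d₂ (hRQ hd₂R)).symm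
      have h4 : (u * u) ^ 4 = d₂ ^ 4 * ζ₁ ^ 4 := by rw [huu, hc1.mul_pow]
      obtain ⟨ζ, hζdef⟩ : ∃ ζ, ζ = ζ₉ * (ζ₁ ^ 4)⁻¹ := ⟨_, rfl⟩
      have hζ : ζ ∈ Zb p X := by
        rw [hζdef]
        exact (Zb p X).mul_mem hζ₉ ((Zb p X).inv_mem ((Zb p X).pow_mem hζ₁ 4))
      have hc2 : ζ * (d₂ ^ 4)⁻¹ = (d₂ ^ 4)⁻¹ * ζ :=
        bf.WcQ ζ (hZW hζ) _ ((Qb p X).inv_mem ((Qb p X).pow_mem (hRQ hd₂R) 4))
      refine ⟨a₉ * (d₂ ^ 4)⁻¹, R.mul_mem (hAR ha₉) (R.inv_mem (R.pow_mem hd₂R 4)), ζ, hζ, ?_⟩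
      have e1 : (u * u) ^ 4 = u ^ 8 := by rw [← pow_two, ← pow_mul]
      have e : u = u ^ 9 * ((u * u) ^ 4)⁻¹ := by
        rw [e1, show (9 : ℕ) = 8 + 1 from rfl, pow_succ', mul_inv_cancel_right]
      calc u = u ^ 9 * ((u * u) ^ 4)⁻¹ := e
        _ = (a₉ * ζ₉) * (d₂ ^ 4 * ζ₁ ^ 4)⁻¹ := by rw [hw₉, h4]
        _ = a₉ * (ζ * (d₂ ^ 4)⁻¹) := by rw [hζdef]; group
        _ = a₉ * ((d₂ ^ 4)⁻¹ * ζ) := by rw [hc2]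
        _ = a₉ * (d₂ ^ 4)⁻¹ * ζ := by group
    have hZR : Zb p X ≤ R := by
      rw [← xb.exc.comm, Subgroup.commutator_le]
      intro u hu u' hu'
      obtain ⟨d, hd, ζ, hζ, rfl⟩ := hdec u hu
      obtain ⟨d', hd', ζ', hζ', rfl⟩ := hdec u' hu'
      rw [commutatorElement_def,
        zq_comm_central (bf.WcQ ζ (hZW hζ) d' (hRQ hd')) (bf.WcQ ζ (hZW hζ) ζ' (hZQ hζ'))
          (bf.WcQ ζ' (hZW hζ') d (hRQ hd))]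
      exact R.mul_mem (R.mul_mem (R.mul_mem hd hd') (R.inv_mem hd)) (R.inv_mem hd')
    intro u hu
    obtain ⟨d, hd, ζ, hζ, rfl⟩ := hdec u hu
    exact R.mul_mem hd (hZR hζ)

end Cfsg.Agent.Lib.Helper45.SnB
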